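import Cfsg.Agent.H380.RC.UEnv

/-!
# S3510, family E: the point rule and the long root rule for `PSU n F q` (helper380)

* `UEnv.conj_siegel` : `x * el (siegel u w μ) * x⁻¹ = el (siegel u (c ^ q • f w) (c * c ^ q * ρ μ))` if `f u = c • u`;
* `UEnv.mem_cmm_of_move` : `[Q_u, x] ≥ R_u` if `w - c ^ q • f w ∉ F u` for some `w ⟂ u`;
* `UEnv.mem_cmm_coprime` : the same for `x ≠ 1` of prime order `r` prime to `q`;
* `UEnv.mem_cmm_semi` : the same for `f` not linear;
* `UEnv.point`, `UEnv.root`, `UEnv.root_one`.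
-/

set_option autoImplicit false

namespace Cfsg.Agent.H380.RC

open Matrix Cfsg Cfsg.Agent.LieClassical.HermBasic Cfsg.Agent.LieClassical.HermSiegel
  Cfsg.Agent.LieClassical.HermGen Cfsg.Agent.LieClassical.SUBasic Cfsg.Agent.ClassicalGeometry.PSUAutBasic
  Cfsg.Agent.ClassicalGeometry.PSUAutCount Cfsg.Agent.LieClassical.FieldTransfer Cfsg.Agent.ClassicalGeometry

section geo

variable {F : Type*} [Field F] [Fintype F] {n q : ℕ}

/-- linear functionals are products with vectors -/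
theorem exists_rep (hF : Fintype.card F = q ^ 2) (L : (Fin n → F) →ₗ[F] F) :
    ∃ w : Fin n → F, ∀ v, hermForm n F q v w = L v := by
  refine ⟨fun i => (L (Pi.single i 1)) ^ q, fun v => ?_⟩
  rw [herm_def]
  have h1 : v = ∑ i, v i • (Pi.single i 1 : Fin n → F) := by
    funext j
    rw [Finset.sum_apply, Finset.sum_eq_single j]
    · simp
    · intro b _ hb
      simp [hb.symm]
    · simp
  conv_rhs => rw [h1]
  rw [map_sum]
  refine Finset.sum_congr rfl fun i _ => ?_
  rw [map_smul, pow_q_pow_q hF, smul_eq_mul]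

/-- `w ∉ F u`: there is `z ⟂ u` with a given product with `w` -/
theorem exists_perp_eq (hF : Fintype.card F = q ^ 2) {u w : Fin n → F} (h : ∀ c : F, w ≠ c • u) (a : F) :
    ∃ z : Fin n → F, hermForm n F q z u = 0 ∧ hermForm n F q z w = a := by
  have h1 : w ∉ Submodule.span F {u} := by
    rw [Submodule.mem_span_singleton]
    rintro ⟨c, hc⟩
    exact h c hc.symm
  obtain ⟨L, hL, hLu⟩ := Submodule.exists_le_ker_of_notMem h1
  obtain ⟨z, hz⟩ := exists_rep hF L
  have h2 : hermForm n F q u z = 0 := by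
    rw [hz]
    exact hLu (Submodule.mem_span_singleton_self u)
  have h3 : hermForm n F q w z ≠ 0 := by rwa [hz]
  have h4 : hermForm n F q z w ≠ 0 := fun h0 => h3 (herm_eq_zero_swap hF h0)
  refine ⟨(a * (hermForm n F q z w)⁻¹) • z, ?_, ?_⟩
  · rw [herm_smul_left, herm_eq_zero_swap hF h2, mul_zero]
  · rw [herm_smul_left, mul_assoc, inv_mul_cancel₀ h4, mul_one]

/-- the second parameter of a Siegel transformation -/
theorem exists_mu (hF : Fintype.card F = q ^ 2) {u w : Fin n → F} (hu : hermForm n F q u u = 0)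
    (hw : hermForm n F q w u = 0) : ∃ μ : F, IsSiegel q u w μ := by
  obtain ⟨μ, hμ⟩ := exists_trace_eq hF (c := -hermForm n F q w w) (by rw [neg_pow_q hF, herm_self_pow hF])
  exact ⟨μ, hu, hw, by rw [hμ]; ring⟩

/-- trace zero elements are of the form `c - c ^ q` -/
theorem exists_sub_pow (hF : Fintype.card F = q ^ 2) {μ : F} (hμ : μ + μ ^ q = 0) : ∃ c : F, c - c ^ q = μ := by
  obtain ⟨t, ht⟩ := exists_trace_ne hF
  refine ⟨μ * t * (t + t ^ q)⁻¹, ?_⟩
  have h1 : (t + t ^ q) ^ q = t + t ^ q := trace_pow_q hF t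
  have h2 : μ ^ q = -μ := (neg_eq_of_add_eq_zero_right hμ).symm
  rw [mul_pow, mul_pow, inv_pow, h1, h2]
  have h3 : μ * t * (t + t ^ q)⁻¹ - -μ * t ^ q * (t + t ^ q)⁻¹ = μ * ((t + t ^ q) * (t + t ^ q)⁻¹) := by ring
  rw [h3, mul_inv_cancel₀ ht, mul_one]

/-- commutators of Siegel transformations -/
theorem siegel_comm (hF : Fintype.card F = q ^ 2) {u w w' : Fin n → F} {μ μ' ν : F}
    (h : IsSiegel q u w μ) (h' : IsSiegel q u w' μ') (hν : ν + ν ^ q = 0)
    (he : ν = hermForm n F q w w' - hermForm n F q w' w) :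
    siegel hF u w μ h * siegel hF u w' μ' h' * (siegel hF u w μ h)⁻¹ * (siegel hF u w' μ' h')⁻¹ =
      transv hF u h.iso ν hν := by
  rw [mul_inv_eq_iff_eq_mul, mul_inv_eq_iff_eq_mul, siegel_mul, transv, siegel_mul, siegel_mul]
  apply siegel_congr
  · rfl
  · rw [zero_add, add_comm]
  · rw [zero_add, herm_zero_right hF, he]
    ring

/-- transvections commute with Siegel transformations -/
theorem transv_comm (hF : Fintype.card F = q ^ 2) {u w : Fin n → F} {μ ν : F}
    (h : IsSiegel q u w μ) (hν : ν + ν ^ q = 0) :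
    siegel hF u w μ h * transv hF u h.iso ν hν = transv hF u h.iso ν hν * siegel hF u w μ h := by
  rw [transv, siegel_mul, siegel_mul]
  apply siegel_congr
  · rfl
  · rw [add_zero, zero_add]
  · rw [herm_zero_left, herm_zero_right hF]
    ring

variable {f : (Fin n → F) → (Fin n → F)} {α : MulAut (PSU n F q)}

/-- conjugates of Siegel transformations -/
theorem ind_siegel (hF : Fintype.card F = q ^ 2) (hadd : ∀ v w, f (v + w) = f v + f w) {ρ : F ≃+* F}
    (hs : ∀ (c : F) (v : Fin n → F), f (c • v) = ρ c • f v)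
    (hh : ∀ u v, hermForm n F q (f u) (f v) = ρ (hermForm n F q u v)) {u w : Fin n → F} {μ : F}
    (h : IsSiegel q u w μ) : ∃ h' : IsSiegel q (f u) (f w) (ρ μ), ∀ v,
      f (act (siegel hF u w μ h) v) = act (siegel hF (f u) (f w) (ρ μ) h') (f v) := by
  refine ⟨⟨by rw [hh, h.iso, map_zero], by rw [hh, h.orth, map_zero], by
    rw [hh, ← map_pow, ← map_add, ← map_add, h.tr, map_zero]⟩, fun v => ?_⟩
  rw [act_siegel, act_siegel, hadd, hadd, hs, hs, hh, hh, map_sub, map_mul]

/-- the same if `f u = c • u` -/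
theorem ind_siegel' (hF : Fintype.card F = q ^ 2) (hadd : ∀ v w, f (v + w) = f v + f w) {ρ : F ≃+* F}
    (hs : ∀ (c : F) (v : Fin n → F), f (c • v) = ρ c • f v)
    (hh : ∀ u v, hermForm n F q (f u) (f v) = ρ (hermForm n F q u v)) {u w : Fin n → F} {μ c : F}
    (h : IsSiegel q u w μ) (hc : f u = c • u) : ∃ h' : IsSiegel q u (c ^ q • f w) (c * c ^ q * ρ μ), ∀ v,
      f (act (siegel hF u w μ h) v) = act (siegel hF u (c ^ q • f w) (c * c ^ q * ρ μ) h') (f v) := by
  obtain ⟨h1, h2⟩ := ind_siegel hF hadd hs hh h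
  have hc0 : c = 0 ∨ c ≠ 0 := em _
  have h3 : IsSiegel q u (f w) (ρ μ) := by
    refine ⟨h.iso, ?_, h1.tr⟩
    rcases hc0 with h0 | h0
    · have h4 : f u = 0 := by rw [hc, h0, zero_smul]
      have h5 : hermForm n F q u u = 0 := h.iso
      by_cases hu : u = 0
      · rw [hu, herm_zero_right hF]
      · exfalso
        obtain ⟨z, hz⟩ := exists_herm_ne_zero hF hu
        have h6 := hh u z
        rw [h4, herm_zero_left] at h6
        exact hz ((map_eq_zero ρ).1 h6.symm)
    · have h4 := h1.orth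
      rw [hc, herm_smul_right] at h4
      exact (mul_eq_zero.1 h4).resolve_left (pow_ne_zero _ h0)
  refine ⟨h3.smul' hF, fun v => ?_⟩
  rw [h2]
  congr 1
  rw [← siegel_smul hF h3]
  exact siegel_congr hF _ _ hc rfl rfl

end geo

namespace UEnv

variable {G Ω : Type*} [Group G] [MulAction G Ω] {N : Subgroup G} {F : Type*} [Field F] [Fintype F] {n q : ℕ}

/-- the image of the group `Q_u` -/
def Q (U : UEnv G Ω N F n q) (u : Fin n → F) (hu : hermForm n F q u u = 0) : Subgroup G := (siegG U.hF u hu).map U.el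

variable {U : UEnv G Ω N F n q} {x y : G} {f g : (Fin n → F) → (Fin n → F)} {u : Fin n → F}
  {hu : hermForm n F q u u = 0}

theorem siegel_mem_Q {w : Fin n → F} {μ : F} (h : IsSiegel q u w μ) : U.el (siegel U.hF u w μ h) ∈ U.Q u hu :=
  ⟨_, ⟨w, μ, h, rfl⟩, rfl⟩

theorem transv_mem_Q {μ : F} (hμ : μ + μ ^ q = 0) : U.el (transv U.hF u hu μ hμ) ∈ U.Q u hu :=
  ⟨_, ⟨0, μ, isSiegel_zero hu hμ, rfl⟩, rfl⟩

theorem mem_Q : x ∈ U.Q u hu ↔ ∃ (w : Fin n → F) (μ : F) (h : IsSiegel q u w μ), x = U.el (siegel U.hF u w μ h) := by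
  constructor
  · rintro ⟨_, ⟨w, μ, h, rfl⟩, rfl⟩
    exact ⟨w, μ, h, rfl⟩
  · rintro ⟨w, μ, h, rfl⟩
    exact siegel_mem_Q h

/-- conjugation of a Siegel transformation -/
theorem conj_siegel (h : U.Lft x f) {ρ : F ≃+* F} (hs : ∀ (c : F) (v : Fin n → F), f (c • v) = ρ c • f v)
    (hh : ∀ u v, hermForm n F q (f u) (f v) = ρ (hermForm n F q u v)) {w : Fin n → F} {μ c : F}
    (hw : IsSiegel q u w μ) (hc : f u = c • u) : ∃ h' : IsSiegel q u (c ^ q • f w) (c * c ^ q * ρ μ),
      x * U.el (siegel U.hF u w μ hw) * x⁻¹ = U.el (siegel U.hF u (c ^ q • f w) (c * c ^ q * ρ μ) h') := by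
  obtain ⟨h1, h2⟩ := ind_siegel' U.hF (Ind.map_add h) hs hh hw hc
  exact ⟨h1, h.conj_el h2⟩

theorem conj_mem_Q (h : U.Lft x f) {c : F} (hc : f u = c • u) (hy : y ∈ U.Q u hu) : x * y * x⁻¹ ∈ U.Q u hu := by
  obtain ⟨w, μ, hw, rfl⟩ := mem_Q.1 hy
  obtain ⟨ρ, hs, hh⟩ := Ind.exists_rho h
  obtain ⟨h1, h2⟩ := conj_siegel h hs hh hw hc
  rw [h2]
  exact siegel_mem_Q h1

theorem Q_comm {μ : F} (hμ : μ + μ ^ q = 0) (hy : y ∈ U.Q u hu) :
    y * U.el (transv U.hF u hu μ hμ) = U.el (transv U.hF u hu μ hμ) * y := by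
  obtain ⟨w, ν, hw, rfl⟩ := mem_Q.1 hy
  rw [← map_mul, ← map_mul]
  exact congrArg U.el (transv_comm U.hF hw hμ)

/-- `Q_u` is a `p`-group -/
theorem isPGroup_Q (U : UEnv G Ω N F n q) (hu : hermForm n F q u u = 0) (p : ℕ) [Fact p.Prime] [CharP F p] :
    IsPGroup p (U.Q u hu) :=
  (isPGroup_siegG U.hF p hu).map U.el

/-- transvections are nontrivial -/
theorem el_transv_ne (U : UEnv G Ω N F n q) (hu : hermForm n F q u u = 0) (hu0 : u ≠ 0) {μ : F} (hμ : μ + μ ^ q = 0)
    (hμ0 : μ ≠ 0) : U.el (transv U.hF u hu μ hμ) ≠ 1 := by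
  intro h1
  obtain ⟨c, hc⟩ := (U.lft_el (transv U.hF u hu μ hμ)).eq_one_iff.1 h1
  obtain ⟨z, hz⟩ := exists_herm_ne_zero U.hF hu0
  have hz' : hermForm n F q z u ≠ 0 := fun h0 => hz (herm_eq_zero_swap U.hF h0)
  have h2 := hc u
  rw [act_transv, hu, mul_zero, zero_smul, add_zero] at h2
  have hc1 : c = 1 := by
    have h3 : (c - 1) • u = 0 := by rw [sub_smul, one_smul, ← h2, sub_self]
    exact sub_eq_zero.1 ((smul_eq_zero.1 h3).resolve_right hu0)
  have h3 := hc z
  rw [act_transv, hc1, one_smul, add_eq_left] at h3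
  rcases smul_eq_zero.1 h3 with h4 | h4
  · rcases mul_eq_zero.1 h4 with h5 | h5
    · exact hμ0 h5
    · exact hz' h5
  · exact hu0 h4

/-- **`[Q_u, x]` contains `R_u`** -/
theorem mem_cmm_of_move (h : U.Lft x f) {c : F} (hc : f u = c • u) {w : Fin n → F} (hw : hermForm n F q w u = 0)
    (hmove : ∀ a : F, w - c ^ q • f w ≠ a • u) {μ : F} (hμ : μ + μ ^ q = 0) :
    U.el (transv U.hF u hu μ hμ) ∈ cmm (U.Q u hu) x := by
  obtain ⟨ρ, hs, hh⟩ := Ind.exists_rho h
  obtain ⟨ν, hν⟩ := exists_mu U.hF hu hw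
  obtain ⟨h1, h2⟩ := conj_siegel h hs hh hν hc
  -- the commutator with `x`
  set s := siegel U.hF u w ν hν with hsdef
  have h3 : U.el s * x * (U.el s)⁻¹ * x⁻¹ ∈ cmm (U.Q u hu) x := mem_cmm (siegel_mem_Q hν)
  have h4 : U.el s * x * (U.el s)⁻¹ * x⁻¹ = U.el (s * (siegel U.hF u (c ^ q • f w) (c * c ^ q * ρ ν) h1)⁻¹) := by
    rw [map_mul, map_inv, ← h2]
    group
  rw [h4, siegel_inv, siegel_mul] at h3
  obtain ⟨b, hb⟩ := exists_sub_pow U.hF hμ
  obtain ⟨z, hz1, hz2⟩ := exists_perp_eq U.hF (w := w + -(c ^ q • f w))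
    (by intro a; rw [← sub_eq_add_neg]; exact hmove a) b
  obtain ⟨κ, hκ⟩ := exists_mu U.hF hu hz1
  have h5 := cmm_comm (siegel_mem_Q (U := U) (hu := hu) hκ) h3
  rw [← map_inv, ← map_inv, ← map_mul, ← map_mul, ← map_mul] at h5
  rw [siegel_comm U.hF hκ (hν.mul U.hF (h1.inv U.hF)) hμ (by rw [herm_swap U.hF z, hz2, hb])] at h5
  exact h5

/-- vectors orthogonal to `u`, not multiples of `u` -/
theorem exists_perp_not (U : UEnv G Ω N F n q) (u : Fin n → F) :
    ∃ w : Fin n → F, hermForm n F q w u = 0 ∧ ∀ a : F, w ≠ a • u := by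
  by_contra hcon
  push Not at hcon
  let L : (Fin n → F) →ₗ[F] F :=
    { toFun := fun v => hermForm n F q v u
      map_add' := fun v w => herm_add_left v w u
      map_smul' := fun c v => herm_smul_left c v u }
  have h1 := L.finrank_range_add_finrank_ker
  have h2 : Module.finrank F (LinearMap.range L) ≤ 1 := by
    refine (Submodule.finrank_le _).trans ?_
    rw [Module.finrank_self]
  have h3 : LinearMap.ker L ≤ Submodule.span F {u} := by
    intro w hw
    obtain ⟨a, ha⟩ := hcon w hw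
    rw [Submodule.mem_span_singleton]
    exact ⟨a, ha.symm⟩
  have h4 := Submodule.finrank_mono h3
  have h5 : Module.finrank F (Submodule.span F {u}) ≤ 1 := by
    refine (finrank_span_le_card (R := F) ({u} : Set (Fin n → F))).trans ?_
    simp
  rw [Module.finrank_fin_fun] at h1
  have := U.hn
  omega

/-- `f` not linear: `x` moves `Q_u / R_u` -/
theorem move_of_semi (h : U.Lft x f) {c : F} (hc0 : c ≠ 0) (hnl : ¬ ∀ (c : F) (v : Fin n → F), f (c • v) = c • f v) :
    ∃ w : Fin n → F, hermForm n F q w u = 0 ∧ ∀ a : F, w - c ^ q • f w ≠ a • u := by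
  obtain ⟨ρ, hs, hh⟩ := Ind.exists_rho h
  obtain ⟨b, hb⟩ : ∃ b : F, ρ b ≠ b := by
    by_contra hcon
    push Not at hcon
    exact hnl fun c v => by rw [hs, hcon]
  obtain ⟨w, hw1, hw2⟩ := U.exists_perp_not u
  by_contra hcon
  push Not at hcon
  obtain ⟨a, ha⟩ := hcon w hw1
  obtain ⟨a', ha'⟩ := hcon (b • w) (by rw [herm_smul_left, hw1, mul_zero])
  rw [hs, smul_comm] at ha'
  -- `(b - ρ b) w` is a multiple of `u`
  have h1 : c ^ q • f w = w - a • u := by rw [← ha]; abel
  rw [h1, smul_sub, ← sub_add, ← sub_smul, smul_smul] at ha'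
  have h2 : (b - ρ b) • w = (a' - ρ b * a) • u := by rw [sub_smul a', ← ha']; abel
  have h3 : b - ρ b ≠ 0 := sub_ne_zero.2 (Ne.symm hb)
  apply hw2 ((b - ρ b)⁻¹ * (a' - ρ b * a))
  rw [mul_smul, ← h2, smul_smul, inv_mul_cancel₀ h3, one_smul]

/-- powers of a unipotent element of class 3 -/
theorem pow_unip {V : Type*} [AddCommGroup V] [Module F V] {δ : Module.End F V} (hδ : δ * δ * δ = 0) (k : ℕ) :
    (1 + δ) ^ k = 1 + (k : F) • δ + ((k.choose 2 : ℕ) : F) • (δ * δ) := by
  induction k with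
  | zero => simp
  | succ k ih =>
    rw [pow_succ, ih, Nat.choose_succ_succ' k 1, Nat.choose_one_right]
    simp only [add_mul, mul_add, mul_one, one_mul, smul_mul_assoc, hδ, smul_zero, add_zero, Nat.cast_add, Nat.cast_one,
      add_smul, one_smul]
    abel

theorem natCast_ne_zero (hF : Fintype.card F = q ^ 2) {r : ℕ} (hr : r.Prime) (hrq : r.Coprime q) : (r : F) ≠ 0 := by
  intro h0
  obtain ⟨p, k, hp, hchar, hk, hk0⟩ := exists_prime_pow hF
  have h1 : p ∣ r := (CharP.cast_eq_zero_iff F p r).1 h0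
  have h2 : p = r := (Nat.prime_dvd_prime_iff_eq hp hr).1 h1
  have h3 : r ∣ q := by
    rw [hk, h2]
    exact dvd_pow_self r hk0.ne'
  have h4 := Nat.eq_one_of_dvd_coprimes hrq dvd_rfl h3
  exact hr.one_lt.ne' h4

/-- `x ≠ 1` of prime order prime to `q` moves `Q_u / R_u` -/
theorem move_of_coprime (h : U.Lft x f) {c : F} (hc : f u = c • u) (hu : hermForm n F q u u = 0) (hu0 : u ≠ 0)
    {r : ℕ} (hr : r.Prime) (hrq : r.Coprime q) (hx : x ^ r = 1) (hx1 : x ≠ 1) :
    ∃ w : Fin n → F, hermForm n F q w u = 0 ∧ ∀ a : F, w - c ^ q • f w ≠ a • u := by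
  have hF := U.hF
  have hc0 : c ≠ 0 := by
    rintro rfl
    rw [zero_smul, ← Ind.map_zero h] at hc
    exact hu0 (Ind.injective h hc)
  by_cases hl : ∀ (c : F) (v : Fin n → F), f (c • v) = c • f v
  · by_contra hcon
    push Not at hcon
    obtain ⟨ρ, hs, hh'⟩ := Ind.exists_rho h
    have hρ : ∀ b : F, ρ b = b := by
      intro b
      have h1 := hl b u
      rw [hs, hc, smul_smul, smul_smul] at h1
      have h2 : (ρ b * c - b * c) • u = 0 := by rw [sub_smul, h1, sub_self]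
      have h3 := (smul_eq_zero.1 h2).resolve_right hu0
      rw [← sub_mul] at h3
      exact sub_eq_zero.1 ((mul_eq_zero.1 h3).resolve_right hc0)
    have hh : ∀ v w, hermForm n F q (f v) (f w) = hermForm n F q v w := fun v w => by rw [hh', hρ]
    -- `c` has norm one
    have hcc : c * c ^ q = 1 := by
      obtain ⟨w, hw1, hw2⟩ := U.exists_perp_not u
      obtain ⟨z, hz1, hz2⟩ := exists_perp_eq hF hw2 1
      obtain ⟨a, ha⟩ := hcon w hw1
      obtain ⟨b, hb⟩ := hcon z hz1
      have e1 : c ^ q • f w = w - a • u := by rw [← ha]; abel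
      have e2 : c ^ q • f z = z - b • u := by rw [← hb]; abel
      have e3 : hermForm n F q (c ^ q • f z) (c ^ q • f w) = hermForm n F q z w := by
        rw [e1, e2, herm_sub_left, herm_sub_right hF, herm_sub_right hF, herm_smul_left, herm_smul_left,
          herm_smul_right, herm_smul_right, hu, hz1, herm_eq_zero_swap hF hw1]
        ring
      rw [herm_smul_left, herm_smul_right, hh, hz2, mul_one, pow_q_pow_q hF] at e3
      rw [mul_comm]
      exact e3
    have hcc' : c ^ q * (c ^ q) ^ q = 1 := by rw [pow_q_pow_q hF, mul_comm, hcc]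
    -- the normalised lift
    obtain ⟨g, hg⟩ : ∃ g : (Fin n → F) → (Fin n → F), g = fun v => c ^ q • f v := ⟨_, rfl⟩
    have hgL : U.Lft x g := by rw [hg]; exact h.scalar hcc'
    have hgu : g u = u := by
      rw [hg]
      change c ^ q • f u = u
      rw [hc, smul_smul, mul_comm, hcc, one_smul]
    let δ : Module.End F (Fin n → F) :=
      { toFun := fun v => g v - v
        map_add' := fun v w => by rw [Ind.map_add hgL]; abel
        map_smul' := fun b v => by
          rw [hg]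
          change c ^ q • f (b • v) - b • v = b • (c ^ q • f v - v)
          rw [hl, smul_comm, smul_sub] }
    have hδ : ∀ v, δ v = g v - v := fun v => rfl
    have hgh : ∀ v w, hermForm n F q (g v) (g w) = hermForm n F q v w := by
      intro v w
      rw [hg]
      change hermForm n F q (c ^ q • f v) (c ^ q • f w) = _
      rw [herm_smul_left, herm_smul_right, hh, ← mul_assoc, hcc', one_mul]
    have h1 : ∀ v, hermForm n F q (δ v) u = 0 := by
      intro v
      rw [hδ, herm_sub_left]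
      nth_rewrite 1 [← hgu]
      rw [hgh, sub_self]
    have h2 : ∀ w, hermForm n F q w u = 0 → ∃ a : F, δ w = a • u := by
      intro w hw
      obtain ⟨a, ha⟩ := hcon w hw
      refine ⟨-a, ?_⟩
      rw [neg_smul, ← ha, hδ, hg]
      abel
    have h3 : δ u = 0 := by rw [hδ, hgu, sub_self]
    have hδ3 : δ * δ * δ = 0 := by
      refine LinearMap.ext fun v => ?_
      change δ (δ (δ v)) = 0
      obtain ⟨a, ha⟩ := h2 _ (h1 v)
      rw [ha, map_smul, h3, smul_zero]
    have hG : ∀ (k : ℕ) v, ((1 + δ) ^ k) v = g^[k] v := by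
      intro k
      induction k with
      | zero => intro v; rfl
      | succ k ih =>
        intro v
        rw [pow_succ, Module.End.mul_apply, ih, Function.iterate_succ_apply]
        congr 1
        change v + δ v = g v
        rw [hδ]
        abel
    have hGr : (1 + δ) ^ r = 1 := by
      obtain ⟨d, hd⟩ := (hgL.pow r).eq_one_iff.1 hx
      have hit : g^[r] u = u := Function.iterate_fixed hgu r
      have hd1 : d = 1 := by
        have h4 := hd u
        rw [hit] at h4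
        have h5 : (d - 1) • u = 0 := by rw [sub_smul, one_smul, ← h4, sub_self]
        exact sub_eq_zero.1 ((smul_eq_zero.1 h5).resolve_right hu0)
      refine LinearMap.ext fun v => ?_
      rw [hG, hd, hd1, one_smul]
      rfl
    have hr0 : (r : F) ≠ 0 := natCast_ne_zero hF hr hrq
    have h4 := pow_unip (F := F) hδ3 r
    rw [hGr, add_assoc, left_eq_add] at h4
    have h5 : δ * δ = 0 := by
      have h6 := congrArg (fun z => z * δ) h4
      simp only [add_mul, smul_mul_assoc, hδ3, smul_zero, add_zero, zero_mul] at h6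
      exact (smul_eq_zero.1 h6).resolve_left hr0
    rw [h5, smul_zero, add_zero] at h4
    have h6 := (smul_eq_zero.1 h4).resolve_left hr0
    apply hx1
    rw [hgL.eq_one_iff]
    refine ⟨1, fun v => ?_⟩
    have h7 := hδ v
    rw [h6] at h7
    rw [one_smul]
    exact (sub_eq_zero.1 h7.symm)
  · exact move_of_semi h hc0 hl

/-- `[Q_u, x]` contains `R_u`, coprime case -/
theorem mem_cmm_coprime (h : U.Lft x f) {c : F} (hc : f u = c • u) (hu0 : u ≠ 0)
    {r : ℕ} (hr : r.Prime) (hrq : r.Coprime q) (hx : x ^ r = 1) (hx1 : x ≠ 1) {μ : F} (hμ : μ + μ ^ q = 0) :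
    U.el (transv U.hF u hu μ hμ) ∈ cmm (U.Q u hu) x := by
  obtain ⟨w, hw1, hw2⟩ := move_of_coprime h hc hu hu0 hr hrq hx hx1
  exact mem_cmm_of_move h hc hw1 hw2 hμ

/-- `[Q_u, x]` contains `R_u`, `f` not linear -/
theorem mem_cmm_semi (h : U.Lft x f) {c : F} (hc : f u = c • u) (hu0 : u ≠ 0)
    (hnl : ¬ ∀ (c : F) (v : Fin n → F), f (c • v) = c • f v) {μ : F} (hμ : μ + μ ^ q = 0) :
    U.el (transv U.hF u hu μ hμ) ∈ cmm (U.Q u hu) x := by
  have hc0 : c ≠ 0 := by
    rintro rfl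
    rw [zero_smul, ← Ind.map_zero h] at hc
    exact hu0 (Ind.injective h hc)
  obtain ⟨w, hw1, hw2⟩ := move_of_semi (u := u) h hc0 hnl
  exact mem_cmm_of_move h hc hw1 hw2 hμ

section rules

variable {ι : Type*} [Finite ι] [Nonempty Ω] [Finite G]

/-- the order of `Q_u` is prime to `r` -/
theorem coprime_card_Q (U : UEnv G Ω N F n q) (hu : hermForm n F q u u = 0) {r : ℕ} (hr : r.Prime) (hrq : r.Coprime q) :
    r.Coprime (Nat.card (U.Q u hu)) := by
  obtain ⟨p, k, hp, hchar, hk, hk0⟩ := exists_prime_pow U.hF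
  have := Fact.mk hp
  obtain ⟨m, hm⟩ := IsPGroup.iff_card.1 (U.isPGroup_Q hu p)
  rw [hm]
  apply Nat.Coprime.pow_right
  rw [Nat.coprime_primes hr hp]
  rintro rfl
  have h3 : r ∣ q := by
    rw [hk]
    exact dvd_pow_self r hk0.ne'
  exact hr.one_lt.ne' (Nat.eq_one_of_dvd_coprimes hrq dvd_rfl h3)

theorem isNilpotent_Q (U : UEnv G Ω N F n q) (hu : hermForm n F q u u = 0) : Group.IsNilpotent (U.Q u hu) := by
  obtain ⟨p, k, hp, hchar, hk, hk0⟩ := exists_prime_pow U.hF
  have := Fact.mk hp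
  exact (U.isPGroup_Q hu p).isNilpotent

/-- **Point rule.** Commuting elements of prime orders prime to `q` with a common singular point do not cover. -/
theorem point (U : UEnv G Ω N F n q) {x : ι → G} {f : ι → (Fin n → F) → (Fin n → F)} {r : ι → ℕ}
    (hr : ∀ i, (r i).Prime) (hrq : ∀ i, (r i).Coprime q) (hx : ∀ i, x i ^ r i = 1) (hx1 : ∀ i, x i ≠ 1)
    (hcomm : ∀ i j, x i * x j = x j * x i) (hf : ∀ i, U.Lft (x i) (f i)) (hcov : H106.RC.Cov Ω x)
    (hu0 : u ≠ 0) (hu : hermForm n F q u u = 0) (hfu : ∀ i, ∃ c : F, f i u = c • u) : False := by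
  obtain ⟨μ, hμ0, hμ⟩ := exists_trace_zero_ne U.hF
  refine not_cov_point U.env hr hx hcomm (U := U.Q u hu) hcov ?_ (U.isNilpotent_Q hu)
    (fun i => U.coprime_card_Q hu (hr i) (hrq i)) (U.el_transv_ne hu hu0 hμ hμ0) ?_
  · intro i y hy
    obtain ⟨c, hc⟩ := hfu i
    exact conj_mem_Q (hf i) hc hy
  · intro i
    obtain ⟨c, hc⟩ := hfu i
    exact mem_cmm_coprime (hf i) hc hu0 (hr i) (hrq i) (hx i) (hx1 i) hμ

/-- **Long root rule.** A root element `y` of `R_u` and commuting elements of prime orders prime to `q` normalising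
`R_u` do not cover. -/
theorem root (U : UEnv G Ω N F n q) {x : ι → G} {f : ι → (Fin n → F) → (Fin n → F)} {r : ι → ℕ}
    (hr : ∀ i, (r i).Prime) (hrq : ∀ i, (r i).Coprime q) (hx : ∀ i, x i ^ r i = 1) (hx1 : ∀ i, x i ≠ 1)
    (hcomm : ∀ i j, x i * x j = x j * x i) (hf : ∀ i, U.Lft (x i) (f i))
    (hu0 : u ≠ 0) (hu : hermForm n F q u u = 0) (hfu : ∀ i, ∃ c : F, f i u = c • u) {μ : F} (hμ : μ + μ ^ q = 0)
    (hμ0 : μ ≠ 0) (hcov : ∀ ω : Ω, U.el (transv U.hF u hu μ hμ) • ω = ω ∨ ∃ i, x i • ω = ω) : False := by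
  refine not_cov_lr U.env hr hx hcomm (U := U.Q u hu) hcov ?_ (U.isNilpotent_Q hu)
    (fun i => U.coprime_card_Q hu (hr i) (hrq i)) (fun y hy => Q_comm hμ hy) (U.el_transv_ne hu hu0 hμ hμ0) ?_
  · intro i y hy
    obtain ⟨c, hc⟩ := hfu i
    exact conj_mem_Q (hf i) hc hy
  · intro i
    obtain ⟨c, hc⟩ := hfu i
    exact mem_cmm_coprime (hf i) hc hu0 (hr i) (hrq i) (hx i) (hx1 i) hμ

omit [Finite G] in
/-- **Long root rule for one element** which moves `Q_u / R_u` (no condition on the order) -/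
theorem root_one_of_move (U : UEnv G Ω N F n q) (h : U.Lft x f) (hu0 : u ≠ 0) (hu : hermForm n F q u u = 0) {c : F}
    (hc : f u = c • u) {w : Fin n → F} (hw : hermForm n F q w u = 0)
    (hmove : ∀ a : F, w - c ^ q • f w ≠ a • u) {μ : F} (hμ : μ + μ ^ q = 0) (hμ0 : μ ≠ 0)
    (hcov : ∀ ω : Ω, U.el (transv U.hF u hu μ hμ) • ω = ω ∨ x • ω = ω) : False :=
  not_cov_one U.env (U := U.Q u hu) hcov (fun y hy => Q_comm hμ hy) (U.el_transv_ne hu hu0 hμ hμ0)
    (mem_cmm_of_move h hc hw hmove hμ)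

omit [Finite G] in
/-- **Long root rule for one element** which is not linear (no condition on the order) -/
theorem root_one (U : UEnv G Ω N F n q) (h : U.Lft x f) (hu0 : u ≠ 0) (hu : hermForm n F q u u = 0) {c : F}
    (hc : f u = c • u) (hnl : ¬ ∀ (c : F) (v : Fin n → F), f (c • v) = c • f v) {μ : F} (hμ : μ + μ ^ q = 0)
    (hμ0 : μ ≠ 0) (hcov : ∀ ω : Ω, U.el (transv U.hF u hu μ hμ) • ω = ω ∨ x • ω = ω) : False :=
  not_cov_one U.env (U := U.Q u hu) hcov (fun y hy => Q_comm hμ hy) (U.el_transv_ne hu hu0 hμ hμ0)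
    (mem_cmm_semi h hc hu0 hnl hμ)

end rules

end UEnv

end Cfsg.Agent.H380.RC
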