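import Cfsg.Agent.H106.RC.Cover

/-!
# S3510: the M-rule for abelian families whose image in `Aut (M / Z)` is cyclic (helper380)

* `mrule_ab` : abelian group `A` normalising the perfect group `M`, every `a ∈ A` induces a power of `α`, `RCe S α`;
* `mrule_fam_ab` : the same for a commuting family (no condition on the orders);
* `mrule_hom_ab`, `mrule_hom_pf` : `M = κ.range`, `κ : P →* G`, `P` perfect, `πP : P →* S`.
-/

set_option autoImplicit false
open Cfsg

namespace Cfsg.Agent.H380.RC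

open MulAction Cfsg.Agent.H106.RC
open scoped commutatorElement

/-- **The M-rule for an abelian group `A`** whose elements induce powers of one automorphism `α` of `S`. -/
theorem mrule_ab {G Ω S : Type*} [Group G] [MulAction G Ω] [Group S] (hS : IsSimpleGroup S)
    (hSn : ¬ IsMulCommutative S) (M : Subgroup G) (hperf : ⁅M, M⁆ = M) (π : M →* S)
    (hπ : Function.Surjective π) (hker : π.ker ≤ Subgroup.center M) (A : Subgroup G)
    (hAab : ∀ a ∈ A, ∀ b ∈ A, a * b = b * a) (hAn : ∀ a ∈ A, a ∈ Subgroup.normalizer (M : Set G)) (α : MulAut S)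
    (hα : ∀ a ∈ A, ∃ k : ℤ, ∀ m m' : M, (m' : G) = a * m * a⁻¹ → (α ^ k) (π m) = π m') (hRC : RCe S α) (ω : Ω)
    (hω : ¬ M ≤ stabilizer G ω) :
    ∃ m ∈ M, ∀ z ∈ A, z • (m • ω) = m • ω →
      (∀ m' ∈ M, z * m' = m' * z) ∧ z • ω = ω := by
  classical
  have hS' := hS
  -- the set of automorphisms induced by elements of `K = M⟨g⟩` fixing `ω`
  let Ind : G → MulAut S → Prop := fun l β =>
    l ∈ Subgroup.normalizer (M : Set G) ∧ ∀ (m m' : M), (m' : G) = l * m * l⁻¹ → β (π m) = π m'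
  have Ind_one : Ind 1 1 := by
    refine ⟨Subgroup.one_mem _, ?_⟩
    intro m m' h
    have : m' = m := Subtype.ext (by rw [h]; group)
    rw [this]; rfl
  have Ind_mul : ∀ {l1 l2 : G} {β1 β2 : MulAut S}, Ind l1 β1 → Ind l2 β2 →
      Ind (l1 * l2) (β1 * β2) := by
    intro l1 l2 β1 β2 h1 h2
    refine ⟨Subgroup.mul_mem _ h1.1 h2.1, ?_⟩
    intro m m' h
    have e2 := h2.2 m ⟨l2 * m * l2⁻¹, norm_conj h2.1 m⟩ rfl
    have e1 := h1.2 ⟨l2 * m * l2⁻¹, norm_conj h2.1 m⟩ m' (by rw [h]; group)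
    rw [MulAut.mul_apply, e2, e1]
  have Ind_inv : ∀ {l : G} {β : MulAut S}, Ind l β → Ind l⁻¹ β⁻¹ := by
    intro l β h
    refine ⟨Subgroup.inv_mem _ h.1, ?_⟩
    intro m m' h'
    have := h.2 m' m (by rw [h']; group)
    rw [← this, MulAut.inv_apply_self]
  have Ind_A : ∀ a ∈ A, ∃ k : ℤ, Ind a (α ^ k) := by
    intro a ha
    obtain ⟨k, hk⟩ := hα a ha
    exact ⟨k, hAn a ha, hk⟩
  have Ind_M : ∀ m : M, Ind (m : G) (MulAut.conj (π m)) := by
    intro m
    refine ⟨Subgroup.le_normalizer m.2, ?_⟩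
    intro a b h
    have : b = m * a * m⁻¹ := Subtype.ext (by rw [h]; rfl)
    rw [this, MulAut.conj_apply]; simp
  have Ind_uniq : ∀ {l : G} {β β' : MulAut S}, Ind l β → Ind l β' → β = β' := by
    intro l β β' h h'
    ext s
    obtain ⟨m, rfl⟩ := hπ s
    rw [h.2 m ⟨_, norm_conj h.1 m⟩ rfl, h'.2 m ⟨_, norm_conj h.1 m⟩ rfl]
  -- K
  let K : G → Prop := fun l => ∃ m ∈ M, ∃ z ∈ A, l = m * z
  have hzN : ∀ z ∈ A, z ∈ Subgroup.normalizer (M : Set G) := hAn
  have K_mul : ∀ {a b}, K a → K b → K (a * b) := by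
    rintro _ _ ⟨m, hm, z, hz, rfl⟩ ⟨m', hm', z', hz', rfl⟩
    refine ⟨m * (z * m' * z⁻¹), M.mul_mem hm (norm_conj (hzN z hz) ⟨m', hm'⟩), z * z',
      Subgroup.mul_mem _ hz hz', by group⟩
  have K_inv : ∀ {a}, K a → K a⁻¹ := by
    rintro _ ⟨m, hm, z, hz, rfl⟩
    refine ⟨z⁻¹ * m⁻¹ * z⁻¹⁻¹, norm_conj (hzN _ (Subgroup.inv_mem _ hz)) ⟨m⁻¹, M.inv_mem hm⟩, z⁻¹,
      Subgroup.inv_mem _ hz, by group⟩
  let H' : Subgroup (MulAut S) :=
    { carrier := {β | ∃ l, K l ∧ l • ω = ω ∧ Ind l β}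
      one_mem' := ⟨1, ⟨1, M.one_mem, 1, Subgroup.one_mem _, by simp⟩, one_smul _ _, Ind_one⟩
      mul_mem' := by
        rintro a b ⟨l, h1, h2, h3⟩ ⟨l', h1', h2', h3'⟩
        exact ⟨l * l', K_mul h1 h1', by rw [mul_smul, h2', h2], Ind_mul h3 h3'⟩
      inv_mem' := by
        rintro a ⟨l, h1, h2, h3⟩
        exact ⟨l⁻¹, K_inv h1, by rw [inv_smul_eq_iff, h2], Ind_inv h3⟩ }
  -- `H'` does not contain the inner automorphisms
  have hH' : ¬ (MulAut.conj : S →* MulAut S).range ≤ H' := by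
    intro hle
    let R : Subgroup S := (((stabilizer G ω).subgroupOf M)).map π
    have hR : R.Normal := by
      constructor
      rintro _ ⟨a, ha, rfl⟩ s
      obtain ⟨l, hlK, hlω, hl⟩ := hle ⟨s, rfl⟩
      have ha' : (a : G) • ω = ω := ha
      refine ⟨⟨l * a * l⁻¹, norm_conj hl.1 a⟩, ?_, ?_⟩
      · show (l * a * l⁻¹) • ω = ω
        rw [mul_smul, mul_smul]
        have : l⁻¹ • ω = ω := by rw [inv_smul_eq_iff, hlω]
        rw [this, ha', hlω]
      · rw [← hl.2 a ⟨l * a * l⁻¹, norm_conj hl.1 a⟩ rfl]; rfl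
    rcases hS.eq_bot_or_eq_top_of_normal R hR with hb | ht
    · -- then `Inn S` is abelian
      apply hSn
      have hMZ : ∀ a : M, (a : G) • ω = ω → π a = 1 := by
        intro a ha
        have : π a ∈ R := ⟨a, ha, rfl⟩
        rw [hb] at this
        exact Subgroup.mem_bot.1 this
      -- commutators of elements of `L` are in `M`
      have hcomm : ∀ s t : S, MulAut.conj s * MulAut.conj t = MulAut.conj t * MulAut.conj s := by
        intro s t
        obtain ⟨l, ⟨m, hm, z, hz, rfl⟩, hlω, hl⟩ := hle ⟨s, rfl⟩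
        obtain ⟨l', ⟨m', hm', z', hz', rfl⟩, hlω', hl'⟩ := hle ⟨t, rfl⟩
        have hzz : z * z' = z' * z := hAab z hz z' hz'
        -- the commutator c = l l' l⁻¹ l'⁻¹
        have hcM : (m * z) * (m' * z') * (m * z)⁻¹ * (m' * z')⁻¹ ∈ M := by
          have e : (m * z) * (m' * z') * (m * z)⁻¹ * (m' * z')⁻¹
              = m * (z * m' * z⁻¹) * ((z * z') * z⁻¹ * m⁻¹ * ((z * z') * z⁻¹)⁻¹) * m'⁻¹ := by
            have : z' = z⁻¹ * (z' * z) := by rw [← hzz]; group
            have h' : z * z' * z⁻¹ = z' := by rw [hzz]; group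
            rw [h']
            have h'' : z * z' * (m * z)⁻¹ = z' * m⁻¹ := by
              rw [mul_inv_rev, ← mul_assoc, h']
            calc (m * z) * (m' * z') * (m * z)⁻¹ * (m' * z')⁻¹
                = m * (z * m' * z⁻¹) * (z * z' * (m * z)⁻¹) * (m' * z')⁻¹ := by group
              _ = m * (z * m' * z⁻¹) * (z' * m⁻¹) * (m' * z')⁻¹ := by rw [h'']
              _ = m * (z * m' * z⁻¹) * (z' * m⁻¹ * z'⁻¹) * m'⁻¹ := by group
          rw [e]
          refine M.mul_mem (M.mul_mem (M.mul_mem hm (norm_conj (hzN z hz) ⟨m', hm'⟩)) ?_) (M.inv_mem hm')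
          have h3 : (z * z') * z⁻¹ ∈ A :=
            Subgroup.mul_mem _ (Subgroup.mul_mem _ hz hz') (Subgroup.inv_mem _ hz)
          exact norm_conj (hzN _ h3) ⟨m⁻¹, M.inv_mem hm⟩
        have hcω : ((m * z) * (m' * z') * (m * z)⁻¹ * (m' * z')⁻¹) • ω = ω := by
          rw [mul_smul, mul_smul, mul_smul]
          have i1 : (m * z)⁻¹ • ω = ω := by rw [inv_smul_eq_iff, hlω]
          have i2 : (m' * z')⁻¹ • ω = ω := by rw [inv_smul_eq_iff, hlω']
          rw [i2, i1, hlω', hlω]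
        have h1 := Ind_mul (Ind_mul (Ind_mul hl hl') (Ind_inv hl)) (Ind_inv hl')
        have h2 := Ind_M ⟨_, hcM⟩
        have h3 := Ind_uniq h1 h2
        rw [hMZ ⟨_, hcM⟩ hcω, map_one] at h3
        calc MulAut.conj s * MulAut.conj t
            = (MulAut.conj s * MulAut.conj t * (MulAut.conj s)⁻¹ * (MulAut.conj t)⁻¹) *
              (MulAut.conj t * MulAut.conj s) := by group
          _ = MulAut.conj t * MulAut.conj s := by rw [h3, one_mul]
      -- so S/Z(S) abelian, S simple nonabelian: contradiction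
      have hcent : Subgroup.center S = ⊥ ∨ Subgroup.center S = ⊤ :=
        hS.eq_bot_or_eq_top_of_normal _ inferInstance
      constructor
      constructor
      intro s t
      rcases hcent with hc | hc
      · have h4 : MulAut.conj (s * t * s⁻¹ * t⁻¹) = 1 := by
          rw [map_mul, map_mul, map_mul, map_inv, map_inv, hcomm s t]; group
        have h5 : s * t * s⁻¹ * t⁻¹ ∈ Subgroup.center S := by
          rw [Subgroup.mem_center_iff]
          intro u
          have := congrArg (fun f : MulAut S => f u) h4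
          simp only [MulAut.conj_apply, MulAut.one_apply] at this
          calc u * (s * t * s⁻¹ * t⁻¹) = ((s * t * s⁻¹ * t⁻¹) * u * (s * t * s⁻¹ * t⁻¹)⁻¹) * (s * t * s⁻¹ * t⁻¹) := by rw [this]
            _ = s * t * s⁻¹ * t⁻¹ * u := by group
        rw [hc, Subgroup.mem_bot] at h5
        calc s * t = (s * t * s⁻¹ * t⁻¹) * (t * s) := by group
          _ = t * s := by rw [h5, one_mul]
      · have : t ∈ Subgroup.center S := by rw [hc]; trivial
        exact Subgroup.mem_center_iff.1 this s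
    · -- then `M ≤ stabilizer`
      apply hω
      have hcov : ∀ m ∈ M, ∃ a ∈ M, a • ω = ω ∧ ∀ m' ∈ M, Commute (a⁻¹ * m) m' := by
        intro m hm
        have : π ⟨m, hm⟩ ∈ R := by rw [ht]; trivial
        obtain ⟨a, ha, hae⟩ := this
        refine ⟨a, a.2, ha, ?_⟩
        intro m' hm'
        have h1 : a⁻¹ * ⟨m, hm⟩ ∈ π.ker := by
          rw [MonoidHom.mem_ker, map_mul, map_inv, hae, inv_mul_cancel]
        have h2 := Subgroup.mem_center_iff.1 (hker h1) ⟨m', hm'⟩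
        have h3 := congrArg (Subtype.val) h2
        exact h3.symm
      conv_lhs => rw [← hperf]
      rw [Subgroup.commutator_le]
      intro a ha b hb
      obtain ⟨a', ha', haω, hac⟩ := hcov a ha
      obtain ⟨b', hb', hbω, hbc⟩ := hcov b hb
      have e : ⁅a, b⁆ = ⁅a', b'⁆ := by
        have ea : a = a' * (a'⁻¹ * a) := by group
        have eb : b = b' * (b'⁻¹ * b) := by group
        set c := a'⁻¹ * a with hc
        set d := b'⁻¹ * b with hd
        have hcM : c ∈ M := M.mul_mem (M.inv_mem ha') ha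
        have hdM : d ∈ M := M.mul_mem (M.inv_mem hb') hb
        rw [ea, eb]
        simp only [commutatorElement_def, mul_inv_rev]
        have c1 : Commute c b' := hac b' hb'
        have c2 : Commute c d := hac d hdM
        have c3 : Commute d a' := hbc a' ha'
        have c4 : Commute c a' := hac a' ha'
        have c5 : Commute d b' := hbc b' hb'
        calc a' * c * (b' * d) * (c⁻¹ * a'⁻¹) * (d⁻¹ * b'⁻¹)
            = a' * (c * (b' * d)) * c⁻¹ * a'⁻¹ * d⁻¹ * b'⁻¹ := by group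
          _ = a' * ((b' * d) * c) * c⁻¹ * a'⁻¹ * d⁻¹ * b'⁻¹ := by
              rw [(Commute.mul_right c1 c2).eq]
          _ = a' * b' * (d * a'⁻¹) * d⁻¹ * b'⁻¹ := by group
          _ = a' * b' * (a'⁻¹ * d) * d⁻¹ * b'⁻¹ := by rw [(c3.inv_right).eq]
          _ = a' * b' * a'⁻¹ * b'⁻¹ := by group
      rw [e]
      have ha1 : a' ∈ stabilizer G ω := haω
      have hb1 : b' ∈ stabilizer G ω := hbω
      rw [commutatorElement_def]
      exact Subgroup.mul_mem _ (Subgroup.mul_mem _ (Subgroup.mul_mem _ ha1 hb1)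
        (Subgroup.inv_mem _ ha1)) (Subgroup.inv_mem _ hb1)
  obtain ⟨s, hs⟩ := hRC H' hH'
  obtain ⟨m0, hm0⟩ := hπ s
  refine ⟨(m0 : G)⁻¹, M.inv_mem m0.2, ?_⟩
  intro z hz hzω
  obtain ⟨k, hk⟩ := Ind_A z hz
  have hfix : ((m0 : G) * z * (m0 : G)⁻¹) • ω = ω := by
    rw [mul_smul, mul_smul, hzω, smul_inv_smul]
  have hK : K ((m0 : G) * z * (m0 : G)⁻¹) := by
    refine K_mul (K_mul ?_ ?_) ?_
    · exact ⟨m0, m0.2, 1, Subgroup.one_mem _, by simp⟩
    · exact ⟨1, M.one_mem, z, hz, by simp⟩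
    · exact ⟨(m0 : G)⁻¹, M.inv_mem m0.2, 1, Subgroup.one_mem _, by simp⟩
  have hI : Ind ((m0 : G) * z * (m0 : G)⁻¹) (MulAut.conj s * α ^ k * (MulAut.conj s)⁻¹) := by
    have h1 := Ind_mul (Ind_mul (Ind_M m0) hk) (Ind_inv (Ind_M m0))
    rwa [hm0] at h1
  have h1 := hs (α ^ k) (Subgroup.zpow_mem_zpowers α k) ⟨_, hK, hfix, hI⟩
  -- hence `z` centralises `M`
  have htriv : ∀ m' ∈ M, z * m' = m' * z := by
    have hIk := hk
    rw [h1] at hIk
    have hval : ∀ m ∈ M, ∃ (h : z * m * (z)⁻¹ * m⁻¹ ∈ M),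
        (⟨_, h⟩ : M) ∈ Subgroup.center M := by
      intro m hm
      have hm1 : z * m * (z)⁻¹ ∈ M := norm_conj hIk.1 ⟨m, hm⟩
      refine ⟨M.mul_mem hm1 (M.inv_mem hm), hker ?_⟩
      rw [MonoidHom.mem_ker]
      have h2 := hIk.2 ⟨m, hm⟩ ⟨_, hm1⟩ rfl
      have h3 : (⟨z * m * (z)⁻¹ * m⁻¹, M.mul_mem hm1 (M.inv_mem hm)⟩ : M)
          = ⟨z * m * (z)⁻¹, hm1⟩ * (⟨m, hm⟩ : M)⁻¹ := rfl
      rw [h3, map_mul, map_inv, ← h2]
      simp
    apply central_triv hperf
    · intro m hm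
      exact (hval m hm).1
    · intro m hm m' hm'
      obtain ⟨h, hc⟩ := hval m hm
      have := Subgroup.mem_center_iff.1 hc ⟨m', hm'⟩
      exact (congrArg Subtype.val this).symm
  refine ⟨htriv, ?_⟩
  have h2 := htriv _ (M.inv_mem m0.2)
  rw [← mul_smul, h2, mul_smul] at hzω
  exact smul_left_cancel _ hzω


/-- **The M-rule for a commuting family** (no condition on the orders) inducing powers of one automorphism. -/
theorem mrule_fam_ab {G Ω S ι : Type*} [Group G] [MulAction G Ω] [Group S] (hS : IsSimpleGroup S)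
    (hSn : ¬ IsMulCommutative S) (M : Subgroup G) (hperf : ⁅M, M⁆ = M) (π : M →* S)
    (hπ : Function.Surjective π) (hker : π.ker ≤ Subgroup.center M) (x : ι → G)
    (hc : ∀ i j, x i * x j = x j * x i) (hnorm : ∀ i, x i ∈ Subgroup.normalizer (M : Set G)) (α : MulAut S)
    (hα : ∀ i, ∃ k : ℤ, ∀ m m' : M, (m' : G) = x i * m * (x i)⁻¹ → (α ^ k) (π m) = π m') (hRC : RCe S α) (ω : Ω)
    (hcov : ∀ m ∈ M, ∃ i, x i • m • ω = m • ω) :
    M ≤ stabilizer G ω ∨ ∃ j, (∀ m ∈ M, x j * m = m * x j) ∧ x j • ω = ω := by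
  by_cases hω : M ≤ stabilizer G ω
  · exact Or.inl hω
  right
  have hAn : ∀ a ∈ Subgroup.closure (Set.range x), a ∈ Subgroup.normalizer (M : Set G) := by
    intro a ha
    have h1 : Subgroup.closure (Set.range x) ≤ Subgroup.normalizer (M : Set G) := by
      rw [Subgroup.closure_le]
      rintro _ ⟨i, rfl⟩
      exact hnorm i
    exact h1 ha
  have hAab : ∀ a ∈ Subgroup.closure (Set.range x), ∀ b ∈ Subgroup.closure (Set.range x), a * b = b * a := by
    have h1 : Subgroup.closure (Set.range x) ≤ Subgroup.centralizer (Subgroup.closure (Set.range x) : Set G) := by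
      rw [Subgroup.closure_le]
      rintro _ ⟨i, rfl⟩
      rw [SetLike.mem_coe, Subgroup.mem_centralizer_iff]
      intro b hb
      have h2 : Subgroup.closure (Set.range x) ≤ Subgroup.centralizer {x i} := by
        rw [Subgroup.closure_le]
        rintro _ ⟨j, rfl⟩
        rw [SetLike.mem_coe, Subgroup.mem_centralizer_singleton_iff]
        exact hc j i
      exact Subgroup.mem_centralizer_singleton_iff.1 (h2 hb)
    intro a ha b hb
    exact (Subgroup.mem_centralizer_iff.1 (h1 ha) b hb).symm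
  have hα' : ∀ a ∈ Subgroup.closure (Set.range x), ∃ k : ℤ, ∀ m m' : M, (m' : G) = a * m * a⁻¹ →
      (α ^ k) (π m) = π m' := by
    intro a ha
    induction ha using Subgroup.closure_induction with
    | mem y hy =>
      obtain ⟨i, rfl⟩ := hy
      exact hα i
    | one =>
      refine ⟨0, fun m m' h => ?_⟩
      have : m' = m := Subtype.ext (by rw [h]; group)
      rw [this]; simp
    | mul a b ha hb iha ihb =>
      obtain ⟨k, hk⟩ := iha
      obtain ⟨l, hl⟩ := ihb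
      refine ⟨k + l, fun m m' h => ?_⟩
      have e2 := hl m ⟨b * m * b⁻¹, norm_conj (hAn b hb) m⟩ rfl
      have e1 := hk ⟨b * m * b⁻¹, norm_conj (hAn b hb) m⟩ m' (by rw [h]; group)
      rw [zpow_add, MulAut.mul_apply, e2, e1]
    | inv a ha iha =>
      obtain ⟨k, hk⟩ := iha
      refine ⟨-k, fun m m' h => ?_⟩
      have e := hk m' m (by rw [h]; group)
      rw [← e, zpow_neg, MulAut.inv_apply_self]
  obtain ⟨m, hm, hmz⟩ := mrule_ab hS hSn M hperf π hπ hker _ hAab hAn α hα' hRC ω hω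
  obtain ⟨i, hi⟩ := hcov m hm
  exact ⟨i, hmz (x i) (Subgroup.subset_closure ⟨i, rfl⟩) hi⟩

section hom

variable {G Ω P S : Type*} [Group G] [MulAction G Ω] [Group P] [Group S]

/-- the homomorphism `κ.range → S` -/
noncomputable def pih (κ : P →* G) (π : P →* S) (hk : κ.ker ≤ π.ker) : κ.range →* S :=
  (QuotientGroup.lift κ.ker π hk).comp (QuotientGroup.quotientKerEquivRange κ).symm.toMonoidHom

theorem pih_apply (κ : P →* G) (π : P →* S) (hk : κ.ker ≤ π.ker) (p : P) (h : κ p ∈ κ.range) :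
    pih κ π hk ⟨κ p, h⟩ = π p := by
  have h1 : (QuotientGroup.quotientKerEquivRange κ).symm ⟨κ p, h⟩ = QuotientGroup.mk p := by
    rw [MulEquiv.symm_apply_eq]
    rfl
  change QuotientGroup.lift κ.ker π hk ((QuotientGroup.quotientKerEquivRange κ).symm ⟨κ p, h⟩) = π p
  rw [h1]
  rfl

theorem pih_surjective (κ : P →* G) (π : P →* S) (hk : κ.ker ≤ π.ker) (hπ : Function.Surjective π) :
    Function.Surjective (pih κ π hk) := by
  intro s
  obtain ⟨p, rfl⟩ := hπ s
  exact ⟨⟨κ p, p, rfl⟩, pih_apply κ π hk p _⟩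

theorem pih_ker (κ : P →* G) (π : P →* S) (hk : κ.ker ≤ π.ker) (hc : π.ker ≤ Subgroup.center P) :
    (pih κ π hk).ker ≤ Subgroup.center κ.range := by
  rintro ⟨_, p, rfl⟩ hp
  have hp' : π p = 1 := (pih_apply κ π hk p _).symm.trans (MonoidHom.mem_ker.1 hp)
  have h1 := hc (MonoidHom.mem_ker.2 hp')
  rw [Subgroup.mem_center_iff] at h1 ⊢
  rintro ⟨_, p', rfl⟩
  apply Subtype.ext
  change κ p' * κ p = κ p * κ p'
  rw [← map_mul, h1, map_mul]

theorem perf_range (κ : P →* G) (hperf : ⁅(⊤ : Subgroup P), (⊤ : Subgroup P)⁆ = ⊤) : ⁅κ.range, κ.range⁆ = κ.range := by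
  rw [MonoidHom.range_eq_map, ← Subgroup.map_commutator, hperf]

theorem norm_range [Finite G] (κ : P →* G) {x : G} (h : ∀ p, ∃ p', x * κ p * x⁻¹ = κ p') :
    x ∈ Subgroup.normalizer (κ.range : Set G) := by
  have h1 : ∀ m ∈ κ.range, x * m * x⁻¹ ∈ κ.range := by
    rintro _ ⟨p, rfl⟩
    obtain ⟨p', hp'⟩ := h p
    exact ⟨p', hp'.symm⟩
  have h2 : ∀ k : ℕ, ∀ m ∈ κ.range, x ^ k * m * (x ^ k)⁻¹ ∈ κ.range := by
    intro k
    induction k with
    | zero => intro m hm; simpa using hm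
    | succ k ih =>
      intro m hm
      have h3 := h1 _ (ih m hm)
      have h4 : x * (x ^ k * m * (x ^ k)⁻¹) * x⁻¹ = x ^ (k + 1) * m * (x ^ (k + 1))⁻¹ := by
        rw [pow_succ']
        group
      rwa [h4] at h3
  rw [Subgroup.mem_normalizer_iff]
  intro m
  refine ⟨h1 m, fun hm => ?_⟩
  obtain ⟨k, hk⟩ : ∃ k : ℕ, x ^ k = x⁻¹ := by
    refine ⟨orderOf x - 1, ?_⟩
    rw [eq_inv_iff_mul_eq_one, ← pow_succ, Nat.sub_add_cancel (orderOf_pos x), pow_orderOf_eq_one]
  have h3 := h2 k _ hm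
  rw [hk] at h3
  have h4 : x⁻¹ * (x * m * x⁻¹) * x⁻¹⁻¹ = m := by group
  rwa [h4] at h3

/-- **The M-rule for `M = κ.range`**, abelian families with cyclic image. -/
theorem mrule_hom_ab [Finite G] {ι : Type*} (hS : IsSimpleGroup S)
    (hSn : ¬ IsMulCommutative S) (κ : P →* G) (hperf : ⁅(⊤ : Subgroup P), (⊤ : Subgroup P)⁆ = ⊤) (π : P →* S)
    (hπ : Function.Surjective π) (hk : κ.ker ≤ π.ker) (hker : π.ker ≤ Subgroup.center P) (x : ι → G)
    (hc : ∀ i j, x i * x j = x j * x i) (hnorm : ∀ i p, ∃ p', x i * κ p * (x i)⁻¹ = κ p') (α : MulAut S)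
    (hα : ∀ i, ∃ k : ℤ, ∀ p p', x i * κ p * (x i)⁻¹ = κ p' → (α ^ k) (π p) = π p') (hRC : RCe S α)
    (hcov : Cov Ω x) (ω : Ω) :
    (∀ p, κ p • ω = ω) ∨ ∃ j, (∀ p, x j * κ p = κ p * x j) ∧ x j • ω = ω := by
  rcases mrule_fam_ab hS hSn κ.range (perf_range κ hperf) (pih κ π hk) (pih_surjective κ π hk hπ)
    (pih_ker κ π hk hker) x hc (fun i => norm_range κ (hnorm i)) α (fun i => by
      obtain ⟨k, hk'⟩ := hα i
      refine ⟨k, ?_⟩
      rintro ⟨_, p, rfl⟩ ⟨_, p', rfl⟩ h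
      have h1 := hk' p p' h.symm
      rw [← pih_apply κ π hk p ⟨p, rfl⟩, ← pih_apply κ π hk p' ⟨p', rfl⟩] at h1
      exact h1) hRC ω (fun m _ => hcov (m • ω)) with h | h
  · exact Or.inl fun p => h ⟨p, rfl⟩
  · obtain ⟨j, hj, hjω⟩ := h
    exact Or.inr ⟨j, fun p => hj _ ⟨p, rfl⟩, hjω⟩

/-- **The M-rule for `M = κ.range`**, families of distinct prime orders. -/
theorem mrule_hom_pf [Finite G] {ι : Type*} [Finite ι] (hS : IsSimpleGroup S)
    (hSn : ¬ IsMulCommutative S) (κ : P →* G) (hperf : ⁅(⊤ : Subgroup P), (⊤ : Subgroup P)⁆ = ⊤) (π : P →* S)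
    (hπ : Function.Surjective π) (hk : κ.ker ≤ π.ker) (hker : π.ker ≤ Subgroup.center P) {x : ι → G} {r : ι → ℕ}
    (hx : PF x r) (hnorm : ∀ i p, ∃ p', x i * κ p * (x i)⁻¹ = κ p')
    (hRC : RC S ∨ ∃ i₀, ∀ i, i ≠ i₀ → ∀ p, x i * κ p = κ p * x i)
    (hcov : Cov Ω x) (ω : Ω) :
    (∀ p, κ p • ω = ω) ∨ ∃ j, (∀ p, x j * κ p = κ p * x j) ∧ x j • ω = ω := by
  have key : κ.range ≤ stabilizer G ω ∨ ∃ j, (∀ m ∈ κ.range, x j * m = m * x j) ∧ x j • ω = ω := by
    rcases hRC with hRC | ⟨i₀, h0⟩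
    · exact mrule_RC hS hSn x r hx.prime hx.inj hx.pow hx.comm κ.range (perf_range κ hperf) (pih κ π hk)
        (pih_surjective κ π hk hπ) (pih_ker κ π hk hker) (fun i => norm_range κ (hnorm i)) hRC ω
        (fun m _ => hcov (m • ω))
    · exact mrule_one hS hSn x r hx.prime hx.inj hx.pow hx.comm κ.range (perf_range κ hperf) (pih κ π hk)
        (pih_surjective κ π hk hπ) (pih_ker κ π hk hker) i₀ (norm_range κ (hnorm i₀))
        (by
          rintro i hi _ ⟨p, rfl⟩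
          exact h0 i hi p) ω (fun m _ => hcov (m • ω))
  rcases key with h | h
  · exact Or.inl fun p => h ⟨p, rfl⟩
  · obtain ⟨j, hj, hjω⟩ := h
    exact Or.inr ⟨j, fun p => hj _ ⟨p, rfl⟩, hjω⟩

end hom

end Cfsg.Agent.H380.RC
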