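import Cfsg.Agent.H380.RC.Final
import Cfsg.Agent.H906.RC.CaseOne
import Cfsg.Agent.H906.RC.Small
import Cfsg.Agent.H579.RC.CaseTwoFinal
import Cfsg.Agent.H452.RC.DecMain
import Cfsg.Agent.H452.RC.GDecMain
import Cfsg.Agent.H452.RC.DSwap
import Cfsg.Agent.H398.RC.LBox
import Cfsg.Agent.H398.RC.StrMain
import Cfsg.Agent.H412.RC.CaseField
import Cfsg.Agent.H322.RC.Desc
import Cfsg.Agent.H433.RC.GraphAlt
import Cfsg.Agent.H195.RC.GraphEven
import Cfsg.Agent.H438.RC.GraphSym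
import Cfsg.Agent.H409.RC.Irr

/-!
# S3510, family E: the row `PSU` (helper380)

`psu` : the row `PSU`, from the row `PSp` (for `PSU_4(2)`).  Boxes by helper106, 188, 195, 322, 368, 398, 406, 409, 412,
433, 438, 452, 579, 664, 743, 906, 993.
-/

set_option autoImplicit false

namespace Cfsg.Agent.H380.RC

/-- E11 -/
theorem caseField : CaseField := by
  intro G Ω _ _ _ _ _ N F _ _ n q U ι _ x f r hfam hcov ⟨_, ⟨i, h1, h2⟩, hIH⟩
  by_cases h3 : n = 3 ∧ q = 2 ^ r i
  · exact H322.RC.caseField_two U x f r hfam hcov ⟨h3.1, ⟨i, h1, h2, h3.2⟩, hIH⟩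
  · exact H412.RC.caseField_of H906.RC.small_stmt U x f r hfam hcov ⟨⟨i, h1, h2, h3⟩, hIH⟩

/-- E9 -/
theorem caseOne : CaseOne :=
  H906.RC.case_one H398.RC.str_main H452.RC.dec_main H452.RC.d_main
    (H398.RC.lstmt H452.RC.dec_main H906.RC.small_stmt) H409.RC.irrStmt H452.RC.gdec_main H906.RC.small_stmt

/-- **the row of the unitary groups** -/
theorem psu (hsp : H106.RC.Row (fun S _ => Cfsg.IsPSp S)) : H106.RC.Row (fun S _ => Cfsg.IsPSU S) :=
  row_psu hsp H906.RC.lift_stmt caseOne H579.RC.case_two caseField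
    (caseGraph H433.RC.gForm H433.RC.graphAlt (H438.RC.graphSym H906.RC.small_stmt)
      (H195.RC.graph_even H906.RC.small_stmt))

end Cfsg.Agent.H380.RC
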